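import Cfsg.Agent.Ev.A
import Cfsg.Agent.Classical.SL2
import Cfsg.Agent.Classical.Transport
import Cfsg.Agent.Known.Aut.PSLRes
import Cfsg.Agent.S2126
import Cfsg.Agent.BN.SzTori

/-! Self-centralizing elements of order seven: `L₂(7)`, `L₂(13)`, `Sz(8)`. -/

set_option autoImplicit false

namespace CF.Ev

open Cfsg Subgroup Matrix CF.Classical
open scoped MatrixGroups

theorem C7.congr {S T : Type*} [Group S] [Group T] (e : S ≃* T) (h : C7 S) : C7 T := by
  obtain ⟨x, h1, h2⟩ := h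
  refine ⟨e x, (e.orderOf_eq x).trans h1, h2 ▸ Nat.card_congr (e.symm.toEquiv.subtypeEquiv
    fun g => ?_)⟩
  rw [mem_centralizer_singleton_iff, mem_centralizer_singleton_iff, ← e.injective.eq_iff]
  simp

theorem C1.c7_of {S : Type*} [Group S] {x : S} (h7 : x ^ 7 = 1) (h1 : x ≠ 1)
    (h : ∀ g, g * x = x * g → g ∈ zpowers x) : C7 S := by
  have : Fact (Nat.Prime 7) := ⟨by norm_num⟩
  have o := orderOf_eq_prime h7 h1
  refine ⟨x, o, ?_⟩
  rw [show centralizer ({x} : Set S) = zpowers x from le_antisymm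
    (fun g hg => h g (mem_centralizer_singleton_iff.1 hg))
    (zpowers_le.2 (mem_centralizer_singleton_iff.2 rfl)), Nat.card_zpowers, o]

theorem C1.psl {F : Type*} [Field F] (t : F) (h7 : !![0, -1; 1, t] ^ 7 = 1)
    (h : ∀ a c r : F, r = 1 ∨ r = -1 → a * (r * (a + t * c)) - -(r * c) * c = 1 →
      -a + -(r * c) * t = -(r * (r * (a + t * c))) →
      -c + r * (a + t * c) * t = r * (-(r * c) + t * (r * (a + t * c))) → ∃ k : Fin 7,
        !![a, -(r * c); c, r * (a + t * c)] = !![0, -1; 1, t] ^ k.1 ∨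
        !![a, -(r * c); c, r * (a + t * c)] = -!![0, -1; 1, t] ^ k.1) : C7 PSL(2, F) := by
  let X : SL(2, F) := ⟨!![0, -1; 1, t], by simp [det_fin_two]⟩
  refine C1.c7_of (x := slToPSL F X) (by rw [← map_pow, show X ^ 7 = 1 from Subtype.ext h7, map_one])
    (fun e => ?_) fun g hg => ?_
  · rcases slToPSL_eq_one_iff.1 e with e | e <;>
      simpa [X] using congrArg (fun A : SL(2, F) => A.1 1 0) e
  obtain ⟨G, rfl⟩ : ∃ G, slToPSL F G = g := QuotientGroup.mk_surjective g
  rw [← map_mul, ← map_mul, slToPSL_eq_iff] at hg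
  obtain ⟨r, hr, e⟩ : ∃ r : F, (r = 1 ∨ r = -1) ∧ G.1 * X.1 = r • (X.1 * G.1) := by
    rcases hg with e | e
    · exact ⟨1, .inl rfl, by simpa using congrArg Subtype.val e⟩
    · exact ⟨-1, .inr rfl, by simpa using congrArg Subtype.val e⟩
  have e1 := congrFun (congrFun e 0) 0
  have e2 := congrFun (congrFun e 0) 1
  have e3 := congrFun (congrFun e 1) 0
  have e5 := congrFun (congrFun e 1) 1
  have e4 := G.2
  simp only [X, Matrix.smul_apply, mul_apply, Fin.sum_univ_two, of_apply, cons_val', cons_val_zero,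
    cons_val_one, cons_val_fin_one, smul_eq_mul] at e1 e2 e3 e5
  have f1 : G.1 0 1 = -(r * G.1 1 0) := by linear_combination e1
  have f2 : G.1 1 1 = r * (G.1 0 0 + t * G.1 1 0) := by linear_combination e3
  rw [det_fin_two, f1, f2] at e4
  obtain ⟨k, hk⟩ := h _ _ r hr e4 (by rw [← f1, ← f2]; linear_combination e2)
    (by rw [← f1, ← f2]; linear_combination e5)
  rw [← f1, ← f2, ← eta_fin_two] at hk
  refine ⟨(k.1 : ℤ), ?_⟩
  simp only [zpow_natCast, ← map_pow]
  exact (slToPSL_eq_iff.2 (hk.imp Subtype.ext Subtype.ext)).symm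

theorem C1.out {F : Type*} [Field F] [Fintype F] {p : ℕ} [Fact p.Prime] (hF : Fintype.card F = p)
    (h : Nat.gcd 2 (p ^ 1 - 1) = 2) : Nat.card (Out PSL(2, F)) = 2 := by
  obtain ⟨φ, -, -, h2⟩ := CF.Known.out_psl_two (f := 1) (hF.trans (pow_one p).symm)
  have : φ.ker = ⊤ := eq_top_iff.2 fun x _ => Subsingleton.elim (α := ZMod 1) _ _
  rw [this, card_top] at h2
  exact h2.trans h

instance C1.p7 : Fact (Nat.Prime 7) := ⟨by norm_num⟩

instance C1.p13 : Fact (Nat.Prime 13) := ⟨by norm_num⟩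

theorem c7_7 {F : Type*} [Field F] [Fintype F] (hF : Fintype.card F = 7) :
    C7 (Matrix.ProjectiveSpecialLinearGroup (Fin 2) F) ∧
      Nat.card (Out (Matrix.ProjectiveSpecialLinearGroup (Fin 2) F)) = 2 :=
  ⟨(C1.psl (2 : ZMod 7) (by decide +kernel) (by decide +kernel)).congr
    (pslCongr _ (FiniteField.ringEquivOfCardEq ((ZMod.card 7).trans hF.symm))), C1.out hF rfl⟩

theorem c7_13 {F : Type*} [Field F] [Fintype F] (hF : Fintype.card F = 13) :
    C7 (Matrix.ProjectiveSpecialLinearGroup (Fin 2) F) ∧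
      Nat.card (Out (Matrix.ProjectiveSpecialLinearGroup (Fin 2) F)) = 2 :=
  ⟨(C1.psl (7 : ZMod 13) (by decide +kernel) (by decide +kernel)).congr
    (pslCongr _ (FiniteField.ringEquivOfCardEq ((ZMod.card 13).trans hF.symm))), C1.out hF rfl⟩

theorem c7_Sz {F : Type*} [Field F] [Fintype F] (hF : Fintype.card F = 8) :
    C7 (Lie.Sz F 4) ∧ Nat.card (Out (Lie.Sz F 4)) = 3 := by
  refine ⟨?_, Cfsg.Agent.S2126.result (m := 1) le_rfl hF⟩
  let D := CF.BN.Suz.lieD F 1 hF
  have c : Nat.card D.H = 7 := by rw [D.card_H, Nat.card_eq_fintype_card, hF]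
  have : Finite D.H := Nat.finite_of_card_ne_zero (by omega)
  obtain ⟨x, hx⟩ := exists_prime_orderOf_dvd_card' (G := D.H) 7 c.symm.dvd
  refine ⟨x, (orderOf_coe x).trans hx, ?_⟩
  exact (congrArg (Nat.card ·) (congrArg (fun K : Subgroup _ => (K : Type _))
    (D.centralizer_of_mem_H x.2 fun e => by
      rw [OneMemClass.coe_eq_one.1 e, orderOf_one] at hx; omega))).trans c

end CF.Ev
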