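import Cfsg.Agent.Ev.A
import Cfsg.Agent.StdZ.Sp
import Cfsg.Agent.Known.Aut.TriMain
import Cfsg.Agent.Geom.OmegaIndex
import Cfsg.Agent.Geom.Simple

/-! Self-centralizing elements of order seven: `Sp₆(2)`, `Ω₈⁺(2)`. -/

set_option autoImplicit false

namespace CF.Ev

open Cfsg Subgroup Matrix Sum CF.Geom

namespace C2

variable {I : Type} [Fintype I] [DecidableEq I]

theorem c7_le {S : Type*} [Group S] {x : S} (h7 : x ^ 7 = 1) (h1 : x ≠ 1)
    (ρ : S →* Matrix I I (ZMod 2)) (e : I → ZMod 2) (c : Fin 3 → I)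
    (he : ρ x *ᵥ ρ x *ᵥ ρ x *ᵥ e + ρ x *ᵥ e + e = 0)
    (hc : ∀ v, ρ x *ᵥ ρ x *ᵥ ρ x *ᵥ v + ρ x *ᵥ v + v = 0 → v ∘ c = 0 → v = 0)
    (h : ∀ g, g * x = x * g → ρ g *ᵥ e = e → g = 1) : C7 S := by
  have : Fact (Nat.Prime 7) := ⟨by norm_num⟩
  have o := orderOf_eq_prime h7 h1
  have k : ∀ g, g * x = x * g → ∀ v, ρ x *ᵥ ρ g *ᵥ v = ρ g *ᵥ ρ x *ᵥ v := fun g hg v => by
    rw [mulVec_mulVec, mulVec_mulVec, ← map_mul, ← map_mul, hg]
  have i : Function.Injective fun g : centralizer ({x} : Set S) => (ρ g *ᵥ e) ∘ c := fun a b hab => by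
    have ha := mem_centralizer_singleton_iff.1 a.2
    have hb := mem_centralizer_singleton_iff.1 b.2
    have := hc (ρ a *ᵥ e - ρ b *ᵥ e) (by
      simp only [mulVec_sub, k _ ha, k _ hb]
      have h1 := congrArg (ρ a *ᵥ ·) he
      have h2 := congrArg (ρ b *ᵥ ·) he
      simp only [mulVec_add, mulVec_zero] at h1 h2
      linear_combination h1 - h2) (sub_eq_zero.2 hab)
    refine (inv_mul_eq_one.1 (Subtype.ext (h _ (mem_centralizer_singleton_iff.1 (b⁻¹ * a).2)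
      ?_))).symm
    rw [coe_mul, map_mul, ← mulVec_mulVec, sub_eq_zero.1 this, mulVec_mulVec, ← map_mul]
    simp
  have := Finite.of_injective _ i
  have h2 := Nat.card_le_card_of_injective _ i
  have h3 : 7 ∣ Nat.card (centralizer ({x} : Set S)) :=
    o ▸ orderOf_dvd_natCard _ (mem_centralizer_singleton_iff.2 rfl)
  have h4 : 0 < Nat.card (centralizer ({x} : Set S)) := Nat.card_pos
  rw [Nat.card_fun, Nat.card_zmod, Nat.card_fin] at h2
  exact ⟨x, o, by omega⟩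

theorem fix_f {X g J : Matrix I I (ZMod 2)} (hg : g * X = X * g)
    (hJ : ∀ u v, (g *ᵥ u) ⬝ᵥ J *ᵥ (g *ᵥ v) = u ⬝ᵥ J *ᵥ v) {e : I → ZMod 2} (he : g *ᵥ e = e)
    (h : ∀ v, X *ᵥ X *ᵥ X *ᵥ v + X *ᵥ X *ᵥ v + v = 0 → e ⬝ᵥ J *ᵥ v = 0 → (X *ᵥ e) ⬝ᵥ J *ᵥ v = 0 →
      (X *ᵥ X *ᵥ e) ⬝ᵥ J *ᵥ v = 0 → v = 0) :
    g *ᵥ X *ᵥ e = X *ᵥ e ∧ g *ᵥ X *ᵥ X *ᵥ e = X *ᵥ X *ᵥ e ∧
      ∀ f, X *ᵥ X *ᵥ X *ᵥ f + X *ᵥ X *ᵥ f + f = 0 → g *ᵥ f = f := by
  have k : ∀ v, X *ᵥ g *ᵥ v = g *ᵥ X *ᵥ v := fun v => by rw [mulVec_mulVec, mulVec_mulVec, hg]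
  have h1 : g *ᵥ X *ᵥ e = X *ᵥ e := by rw [← k, he]
  have h2 : g *ᵥ X *ᵥ X *ᵥ e = X *ᵥ X *ᵥ e := by rw [← k, h1]
  have h3 : ∀ u f, g *ᵥ u = u → u ⬝ᵥ J *ᵥ (g *ᵥ f - f) = 0 := fun u f hu => by
    rw [mulVec_sub, dotProduct_sub, ← hJ u f, hu, sub_self]
  refine ⟨h1, h2, fun f hf => sub_eq_zero.1 (h _ ?_ (h3 _ _ he) (h3 _ _ h1) (h3 _ _ h2))⟩
  have h4 := congrArg (g *ᵥ ·) hf
  simp only [mulVec_add, mulVec_zero] at h4
  simp only [mulVec_sub, k]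
  linear_combination h4 - hf

theorem ext1 {g s : Matrix I I (ZMod 2)} (h : ∀ i, g *ᵥ Pi.single i 1 = s *ᵥ Pi.single i 1) :
    g = s := by
  ext i j
  simpa using congrFun (h j) i

/-- An element of order seven. -/
def X6 : Matrix (Fin 3 ⊕ Fin 3) (Fin 3 ⊕ Fin 3) (ZMod 2) :=
  fromBlocks !![0, 0, 1; 1, 0, 1; 0, 1, 0] 0 0 !![1, 0, 1; 1, 0, 0; 0, 1, 0]

/-- An element of order seven. -/
def X8 : Matrix (Fin 4 ⊕ Fin 4) (Fin 4 ⊕ Fin 4) (ZMod 2) :=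
  fromBlocks !![0, 0, 1, 0; 1, 0, 1, 0; 0, 1, 0, 0; 0, 0, 0, 1] 0 0
    !![1, 0, 1, 0; 1, 0, 0, 0; 0, 1, 0, 0; 0, 0, 0, 1]

set_option synthInstance.maxSize 2000 in
theorem sp : C7 (symplecticGroup (Fin 3) (ZMod 2)) := by
  let x : symplecticGroup (Fin 3) (ZMod 2) := ⟨X6, SymplecticGroup.mem_iff.2 (by decide +kernel)⟩
  refine c7_le (x := x) (Subtype.ext ?_) (fun e => absurd (congrArg Subtype.val e) (by decide +kernel))
    (Submonoid.subtype _) (Pi.single (inl 0) 1) inl (by decide +kernel) (by decide +kernel)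
    fun g hg he => Subtype.ext (ext1 fun i => ?_)
  · show X6 ^ 7 = 1
    rw [X6, fromBlocks_diagonal_pow]
    decide +kernel
  obtain ⟨h1, h2, h3⟩ := fix_f (X := X6) (J := J (Fin 3) (ZMod 2)) (congrArg Subtype.val hg)
    (fun u v => by
      rw [mulVec_mulVec, dotProduct_mulVec, vecMul_mulVec, ← dotProduct_mulVec, ← Matrix.mul_assoc,
        SymplecticGroup.mem_iff'.1 g.2]) he (by decide +kernel)
  rw [OneMemClass.coe_one, one_mulVec]
  rcases i with i | i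
  · rw [show X6 *ᵥ Pi.single (inl 0) 1 = Pi.single (inl 1) 1 by decide +kernel] at h1 h2
    rw [show X6 *ᵥ Pi.single (inl 1) 1 = Pi.single (inl 2) 1 by decide +kernel] at h2
    fin_cases i
    exacts [he, h1, h2]
  · exact h3 _ (by revert i; decide +kernel)

/-- The polar form. -/
def J8 : Matrix (Fin 4 ⊕ Fin 4) (Fin 4 ⊕ Fin 4) (ZMod 2) := fromBlocks 0 1 1 0

theorem polar_eq (u v : Fin 4 ⊕ Fin 4 → ZMod 2) : u ⬝ᵥ J8 *ᵥ v =
    quadFormPlus 4 (ZMod 2) (u + v) - quadFormPlus 4 (ZMod 2) u - quadFormPlus 4 (ZMod 2) v := by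
  simp [J8, quadFormPlus, fromBlocks_mulVec, dotProduct, Fin.sum_univ_four]
  ring

set_option synthInstance.maxSize 2000 in
theorem om : C7 (Omega (ZMod 2) (quadFormPlus 4 (ZMod 2))) := by
  have hQ := qPlus_nondegenerate (F := ZMod 2) 4
  have ht := reflSub_eq_top_fin hQ (Or.inr (by simp))
  have x7 : X8 ^ 7 = 1 := by
    rw [X8, fromBlocks_diagonal_pow]
    decide +kernel
  let y : isometryGroup (ZMod 2) (quadFormPlus 4 (ZMod 2)) :=
    ⟨⟨X8, X8 ^ 6, (pow_succ' _ _).symm.trans x7, (pow_succ _ _).symm.trans x7⟩, fun u _ => by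
      show quadFormPlus 4 (ZMod 2) (X8 *ᵥ u) = quadFormPlus 4 (ZMod 2) u
      revert u
      decide +kernel⟩
  have y7 : y ^ 7 = 1 := Subtype.ext (Units.ext x7)
  have hy : y ∈ Omega (ZMod 2) (quadFormPlus 4 (ZMod 2)) := by
    have := sq_mem_of_index_two (H := Omega (ZMod 2) (quadFormPlus 4 (ZMod 2)))
      ((index_Omega (qPlus 4 (ZMod 2))).trans (index_commutator_even hQ rfl ht)) (y ^ 4)
    rwa [← pow_mul, pow_succ, y7, one_mul] at this
  refine c7_le (x := ⟨y, hy⟩) (Subtype.ext y7)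
    (fun e => absurd (congrArg (·.1.1.1) e) (show ¬ X8 = 1 by decide +kernel))
    ((Units.coeHom _).comp ((Subgroup.subtype _).comp (Subgroup.subtype _))) (Pi.single (inl 0) 1)
    (fun i => inl i.castSucc) (show X8 *ᵥ X8 *ᵥ X8 *ᵥ _ + X8 *ᵥ _ + _ = 0 by decide +kernel)
    (show ∀ v, X8 *ᵥ X8 *ᵥ X8 *ᵥ v + X8 *ᵥ v + v = 0 → _ by decide +kernel) fun g hg he => ?_
  obtain ⟨G, hG⟩ : ∃ G, G = g.1.1.1 := ⟨_, rfl⟩
  replace he : G *ᵥ Pi.single (inl 0) 1 = Pi.single (inl 0) 1 := hG ▸ he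
  replace hg : G * X8 = X8 * G := hG ▸ congrArg (·.1.1.1) hg
  have q : ∀ u, quadFormPlus 4 (ZMod 2) (G *ᵥ u) = quadFormPlus 4 (ZMod 2) u := fun u =>
    hG ▸ g.1.2 u u
  have b : ∀ u v, (G *ᵥ u) ⬝ᵥ J8 *ᵥ (G *ᵥ v) = u ⬝ᵥ J8 *ᵥ v := fun u v => by
    rw [polar_eq, polar_eq, ← mulVec_add, q, q, q]
  obtain ⟨h1, h2, h3⟩ := fix_f hg b he (by decide +kernel)
  rw [show X8 *ᵥ Pi.single (inl 0) 1 = Pi.single (inl 1) 1 by decide +kernel] at h1 h2
  rw [show X8 *ᵥ Pi.single (inl 1) 1 = Pi.single (inl 2) 1 by decide +kernel] at h2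
  have h4 := h3 (Pi.single (inr 0) 1) (by decide +kernel)
  have h5 := h3 (Pi.single (inr 1) 1) (by decide +kernel)
  have h6 := h3 (Pi.single (inr 2) 1) (by decide +kernel)
  have w : ∀ u, X8 *ᵥ u = u → quadFormPlus 4 (ZMod 2) u = 0 → G *ᵥ u ∈
      [0, Pi.single (inl 3) 1, Pi.single (inr 3) 1] := fun u h h' =>
    (show ∀ v, X8 *ᵥ v = v → quadFormPlus 4 (ZMod 2) v = 0 → v ∈
      [0, Pi.single (inl 3) 1, Pi.single (inr 3) 1] by decide +kernel) _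
      (by rw [mulVec_mulVec, ← hg, ← mulVec_mulVec, h]) ((q u).trans h')
  obtain ⟨h7, h8⟩ | ⟨h7, h8⟩ := (show ∀ u ∈ [0, Pi.single (inl 3) 1, Pi.single (inr 3) 1],
      ∀ v ∈ [0, Pi.single (inl 3) 1, Pi.single (inr 3) 1], u ⬝ᵥ J8 *ᵥ v = 1 →
        u = Pi.single (inl 3) 1 ∧ v = Pi.single (inr 3) 1 ∨
        u = Pi.single (inr 3) 1 ∧ v = Pi.single (inl 3) 1 by decide +kernel) _
    (w (Pi.single (inl 3) 1) (by decide +kernel) (by decide +kernel)) _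
    (w (Pi.single (inr 3) 1) (by decide +kernel) (by decide +kernel))
    ((b _ _).trans (by decide +kernel))
  · refine Subtype.ext (Subtype.ext (Units.ext (hG.symm.trans (ext1 fun i => ?_))))
    show _ = (1 : Matrix _ _ _) *ᵥ _
    rw [one_mulVec]
    rcases i with i | i <;> fin_cases i
    exacts [he, h1, h2, h7, h4, h5, h6, h8]
  · have h9 := (mem_Omega_iff (qPlus 4 (ZMod 2)) g.1).1 g.2
    have e : quadFormPlus 4 (ZMod 2) (Pi.single (inl 3) 1 + Pi.single (inr 3) 1) = 1 := by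
      decide +kernel
    refine absurd ((prod_oRefl_mem_commutator_iff hQ ht [Pi.single (inl 3) 1 + Pi.single (inr 3) 1]
      (by
        simp only [List.mem_singleton, forall_eq]
        exact e.trans_ne one_ne_zero)).1
      ((oEquiv_eq_prod_oRefl_iff (qPlus 4 (ZMod 2)) g.1 _).2 ?_ ▸ h9)).1 (by decide)
    refine hG.symm.trans ?_
    rw [List.map_singleton, List.prod_singleton, reflectionMatrix, coe_qPlus, e, inv_one, one_smul]
    refine ext1 fun i => ?_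
    rcases i with i | i <;> fin_cases i
    exacts [he.trans (by decide +kernel), h1.trans (by decide +kernel), h2.trans (by decide +kernel),
      h7.trans (by decide +kernel), h4.trans (by decide +kernel), h5.trans (by decide +kernel),
      h6.trans (by decide +kernel), h8.trans (by decide +kernel)]

end C2

theorem c7_Sp : C7 (Matrix.symplecticGroup (Fin 3) (ZMod 2)) ∧
    Nat.card (Out (Matrix.symplecticGroup (Fin 3) (ZMod 2))) = 1 := ⟨C2.sp, CF.StdZ.Sp.out_Sp⟩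

theorem c7_O : C7 (Omega (ZMod 2) (quadFormPlus 4 (ZMod 2))) ∧
    Nat.card (Out (Omega (ZMod 2) (quadFormPlus 4 (ZMod 2)))) = 6 := by
  classical
  refine ⟨C2.om, ?_⟩
  have z : center (Omega (ZMod 2) (quadFormPlus 4 (ZMod 2))) = ⊥ := eq_bot_of_card_eq _ (by
    have := card_center_omega (qPlus_nondegenerate (F := ZMod 2) 4) (by simp) (Or.inr (by simp))
      (omegaToOG_injective _) (omegaToOG_range _)
    rwa [if_neg fun h => h.1 rfl] at this)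
  obtain ⟨e⟩ := CF.Known.out_plus_four_two (F := ZMod 2) (f := 1) rfl
  rw [← CF.Bt.card_out_congr ((QuotientGroup.quotientMulEquivOfEq z).trans
    QuotientGroup.quotientBot), Nat.card_congr e.toEquiv]
  simp [Fintype.card_perm, Nat.factorial]

end CF.Ev
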