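import Cfsg.Agent.Ev.A
import Cfsg.Agent.E72.C

/-! A maximal subgroup whose generalized Fitting subgroup fixes a vector: counting in a centralizer. -/

set_option autoImplicit false

namespace CF.Ev

open Module CF.E83 Cfsg Cfsg.Lie Subgroup MulAction

namespace N

variable {X W : Type*} [Group X] [Finite X] [AddCommGroup W] [Finite W] [DistribMulAction X W]

theorem exists_vec (h3 : ∀ w : W, 3 • w = 0) {S : Subgroup X} [S.Normal] (hi : S.index ∣ 6) {u : W}
    (h0 : u ≠ 0) (hu : ∀ g ∈ S, g • u = u) :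
    ∃ v : W, v ≠ 0 ∧ (∀ g ∈ S, g • v = v) ∧ ∀ g : X, g • v = v ∨ g • v = -v := by
  haveI : Fact (Nat.Prime 3) := ⟨Nat.prime_three⟩
  obtain ⟨P⟩ : Nonempty (Sylow 3 X) := inferInstance
  let u' : FixedPoints.addSubgroup S W := ⟨u, fun g => hu g g.2⟩
  have h1 : 3 ∣ Nat.card (fixedPoints S W) := addOrderOf_eq_prime (x := u') (p := 3)
    (Subtype.ext (h3 u)) (fun e => h0 (congrArg Subtype.val e)) ▸ addOrderOf_dvd_natCard u'
  obtain ⟨b, hb, e⟩ := P.2.exists_fixed_point_of_prime_dvd_card_of_fixed_point (fixedPoints S W) h1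
    (a := ⟨0, fun g => smul_zero g⟩) fun g => Subtype.ext (smul_zero (g : X))
  have b0 : (b : W) ≠ 0 := fun k => e (Subtype.ext k.symm)
  have hS : S ≤ stabilizer X (b : W) := fun g hg => b.2 ⟨g, hg⟩
  have h2 : (stabilizer X (b : W)).index ∣ 2 := Nat.Coprime.dvd_of_dvd_mul_left (m := 3)
    (Nat.coprime_comm.1 (Nat.prime_three.coprime_iff_not_dvd.2 fun k : 3 ∣ (stabilizer X (b : W)).index => P.not_dvd_index
      (Dvd.dvd.trans k (index_dvd_of_le (show (P : Subgroup X) ≤ stabilizer X (b : W) from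
        fun g hg => congrArg Subtype.val (hb ⟨g, hg⟩)))))) ((index_dvd_of_le hS).trans hi)
  rcases (Nat.dvd_prime Nat.prime_two).1 h2 with h | h
  · exact ⟨b, b0, hS, fun g => Or.inl ((index_eq_one.1 h).ge trivial)⟩
  obtain ⟨a, ha⟩ := index_eq_two_iff'.1 h
  have k1 : ∀ g : X, g • (b : W) = b ∨ g • (b : W) = a⁻¹ • (b : W) := fun g => by
    rcases ha g with k | k
    · exact Or.inr (eq_inv_smul_iff.2 ((mul_smul _ _ _).symm.trans k.1))
    · exact Or.inl k.1
  have k2 : ∀ g : X, g • (b : W) = b ↔ ¬ g • a⁻¹ • (b : W) = b := fun g => by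
    have a0 : a ∉ stabilizer X (b : W) := fun k => by simpa [k] using ha 1
    rw [← mul_smul, ← mem_stabilizer_iff, ← mem_stabilizer_iff, mul_mem_iff_of_index_two h, inv_mem_iff]
    tauto
  have k3 : ∀ g : X, g • ((b : W) + a⁻¹ • (b : W)) = b + a⁻¹ • (b : W) := fun g => by
    rw [smul_add]
    by_cases k : g • (b : W) = b
    · rw [k, ← mul_smul, (k1 (g * a⁻¹)).resolve_left (by rw [mul_smul]; exact (k2 g).1 k)]
    · rw [(k1 g).resolve_left k, not_not.1 (mt (k2 g).2 k), add_comm]
  by_cases k : (b : W) + a⁻¹ • (b : W) = 0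
  · exact ⟨b, b0, hS, fun g => (k1 g).imp_right fun e => e.trans (eq_neg_of_add_eq_zero_right k)⟩
  · exact ⟨_, k, fun g _ => k3 g, fun g => Or.inl (k3 g)⟩

omit [Finite X] [Finite W] in
/-- the stabilizer of `±v` -/
def pm (X : Type*) [Group X] [DistribMulAction X W] (v : W) : Subgroup X where
  carrier := {g | g • v = v ∨ g • v = -v}
  one_mem' := Or.inl (one_smul _ _)
  mul_mem' := by
    rintro a b (ha | ha) (hb | hb) <;> simp [mul_smul, ha, hb]
  inv_mem' := by
    rintro a (ha | ha)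
    · exact Or.inl (inv_smul_eq_iff.2 ha.symm)
    · exact Or.inr (inv_smul_eq_iff.2 (by rw [smul_neg, ha, neg_neg]))

theorem pm_ne [IsSimpleGroup X] (hX : 2 < Nat.card X) (f0 : ∀ v : W, (∀ g : X, g • v = v) → v = 0) {v : W}
    (h0 : v ≠ 0) : pm X v ≠ ⊤ := fun k => by
  have h9 : (stabilizer X v).index ≤ 2 := by
    rw [index_stabilizer]
    refine (Set.ncard_le_ncard (t := {v, -v}) ?_ (Set.toFinite _)).trans ((Set.ncard_insert_le _ _).trans (by simp))
    rintro _ ⟨g, rfl⟩
    exact (k.ge trivial : g ∈ pm X v)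
  rcases (inferInstance : (stabilizer X v).normalCore.Normal).eq_bot_or_eq_top with k | k
  · have := Nat.card_le_card_of_injective _ ((MonoidHom.ker_eq_bot_iff _).1
      ((normalCore_eq_ker _).symm.trans k))
    rw [Nat.card_perm] at this
    exact (this.trans (Nat.factorial_le h9)).not_gt hX
  · exact h0 (f0 v fun g => normalCore_le _ (k.ge trivial))

end N

variable {V X : Type*} [AddCommGroup V] [Module (ZMod 3) V] [FiniteDimensional (ZMod 3) V]
  [Group X] {r : X →* End (ZMod 3) V}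

theorem Dt.no (h : Dt r) [Finite X] [IsSimpleGroup X] (hX : 2 < Nat.card X) {H : Subgroup X}
    (hH : IsCoatom H) {S : Type*} [Group S] (hc : C7 S) (ho : Nat.card (Out S) ∣ 6)
    (hf : ∀ j : S →* X, Function.Injective j → FixV r j ∧
      (Nat.card (Out S) ≤ 2 ∨ ∀ x, orderOf x = 7 → dm r (j x) = 38)) :
    IsEmpty (generalizedFittingSubgroup H ≃* S) := by
  refine ⟨fun φ => ?_⟩
  haveI : Finite V := Module.finite_of_finite (ZMod 3)
  letI : DistribMulAction X V := DistribMulAction.compHom V r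
  haveI : Finite S := Finite.of_equiv _ φ.toEquiv
  set F := generalizedFittingSubgroup H with hF
  haveI : F.Normal := inferInstance
  let j : S →* X := (H.subtype.comp F.subtype).comp φ.symm.toMonoidHom
  have hj : Function.Injective j := (H.subtype_injective.comp F.subtype_injective).comp φ.symm.injective
  obtain ⟨⟨u, u0, hu⟩, h38⟩ := hf j hj
  have hi := CF.E72.fstar_idx φ
  obtain ⟨v, v0, hv, hv'⟩ := N.exists_vec (X := H) (W := V) (fun w => by
    rw [← Nat.cast_smul_eq_nsmul (ZMod 3)]; exact zero_smul _ w) (hi.trans ho) u0 fun g hg => by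
      change r g u = u
      simpa [j] using hu (φ ⟨g, hg⟩)
  have e : N.pm X v = H := (hH.le_iff.1 fun g hg => hv' ⟨g, hg⟩).resolve_left (N.pm_ne hX h.f0 v0)
  obtain ⟨x, hx, hcx⟩ := hc
  have x7 : j x ^ 7 = 1 := by rw [← map_pow, ← hx, pow_orderOf_eq_one, map_one]
  have x1 : j x ≠ 1 := fun k => by
    rw [(map_eq_one_iff j hj).1 k, orderOf_one] at hx; omega
  have big := h.big (j x) x7 x1 v (hv _ (φ.symm x).2)
  set C := centralizer ({((φ.symm x : F) : H)} : Set H) with hC
  have c1 : Nat.card {g // g * j x = j x * g ∧ r g v = v} ≤ Nat.card C :=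
    Nat.card_le_card_of_injective (fun g => ⟨⟨g.1, e.le (Or.inl g.2.2)⟩,
      mem_centralizer_singleton_iff.2 (Subtype.ext g.2.1)⟩)
      fun a b k => Subtype.ext (congrArg (fun t : C => ((t : H) : X)) k)
  have c2 : Nat.card (F.subgroupOf C) ≤ 7 := hcx ▸ Nat.card_le_card_of_injective
    (fun g => (⟨φ ⟨g.1.1, g.2⟩, mem_centralizer_singleton_iff.2 (φ.symm.injective (by
      rw [map_mul, map_mul, φ.symm_apply_apply]
      exact Subtype.ext (mem_centralizer_singleton_iff.1 g.1.2)))⟩ : centralizer ({x} : Set S)))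
    fun a b k => Subtype.ext (Subtype.ext (congrArg (fun t : F => (t : H)) (φ.injective (congrArg Subtype.val k))))
  have c3 : F.relIndex C ≤ Nat.card (Out S) :=
    (Nat.le_of_dvd (Nat.pos_of_ne_zero index_ne_zero_of_finite) (relIndex_dvd_index_of_normal F C)).trans
      (Nat.le_of_dvd (Nat.pos_of_dvd_of_pos ho (by decide)) hi)
  have c4 : Nat.card C ≤ 7 * Nat.card (Out S) := by
    rw [← (F.subgroupOf C).card_mul_index]; exact Nat.mul_le_mul c2 c3
  have c5 := Nat.le_of_dvd (by decide) ho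
  rcases h38 with k | k
  · omega
  · have := big.2 (k x hx); omega

end CF.Ev
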