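import Cfsg.Agent.Ev.D
import Cfsg.Agent.Ev.G4
import Cfsg.Agent.Ev.N
import Cfsg.Agent.S1054

/-! Almost simple subgroups of `E₈(3)` that fix a vector are not maximal. -/

set_option autoImplicit false

namespace CF.Ev

open Module CF.E83 CF.Chev CF.BN CF.ExA Cfsg Cfsg.Lie

theorem exists_dt : ∃ r : chevE8.group (ZMod 3) →* End (ZMod 3) (Fin 8 ⊕ Fin 240 → ZMod 3), Dt r := by
  obtain ⟨L⟩ : Nonempty (LS.{0} cE8 1 3 3 1 (chevE8.group (ZMod 3))) :=
    exists_LS_chev goodE8 (fun K _ => torE8 K) cenE8 (ZMod 3) 3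
  obtain ⟨f, hf⟩ := L.h.faith
  exact dt_of L hf (N := 3 ^ 120 * (3 ^ 2 - 1) * (3 ^ 8 - 1) *
    (3 ^ 12 - 1) * (3 ^ 14 - 1) * (3 ^ 18 - 1) * (3 ^ 20 - 1) * (3 ^ 24 - 1) * (3 ^ 30 - 1) / 31)
    ((cardE8 (ZMod 3) (Nat.card_zmod 3)).trans (by decide +kernel)) (by decide +kernel)
    (bigK L hf)

theorem not_max {H : Subgroup (chevE8.group (ZMod 3))} {S : Type*} [Group S]
    (e : Nonempty (generalizedFittingSubgroup H ≃* S)) (hc : C7 S) (ho : Nat.card (Out S) ∣ 6)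
    (hf : ∀ r : chevE8.group (ZMod 3) →* End (ZMod 3) (Fin 8 ⊕ Fin 240 → ZMod 3), Dt r →
      ∀ j : S →* chevE8.group (ZMod 3), Function.Injective j → FixV r j ∧
        (Nat.card (Out S) ≤ 2 ∨ ∀ x, orderOf x = 7 → dm r (j x) = 38)) : ¬ IsCoatom H := fun hH => by
  obtain ⟨r, h⟩ := exists_dt
  have c := cardE8 (ZMod 3) (Nat.card_zmod 3)
  have : Finite (chevE8.group (ZMod 3)) := Nat.finite_of_card_ne_zero (c.trans_ne (by decide +kernel))
  have := (Cfsg.Agent.S1054.result (F := ZMod 3) chevE8 (by simp)).1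
  exact (h.no (lt_of_lt_of_eq (by decide +kernel) c.symm) hH hc ho (hf r h)).false e.some

end CF.Ev
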